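import Mathlib
import Cfsg.Prelude.Def_OddOrderLocal
import Cfsg.Prelude.Def_Solvable
import Cfsg.Agent.Lib.Nilpotent.Fitting
import Cfsg.Agent.Lib.Nilpotent.Elements
import Cfsg.Agent.Lib.PGroup.Basic
import Cfsg.Agent.Lib.Frobenius.Basic
import Cfsg.Agent.Lib.Frobenius.Center

/-!
# Finite groups in which all centralizers are TI: basic consequences

`HTI G`: the centralizer of every element is a TI-subset.  If `x, y` commute and `y ≠ 1` then `C(y)`
normalizes `C(x)`; hence every centralizer of a nonidentity element is nilpotent.  If the Fitting subgroup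
is nontrivial, `G` is nilpotent or a Frobenius group with kernel `F(G)`.
-/

set_option autoImplicit false
set_option linter.style.haveILetI false

namespace Cfsg.Agent.Lib.TICent

open Cfsg Subgroup

variable {G : Type*} [Group G]

/-- The centralizer of an element. -/
abbrev Ce (x : G) : Subgroup G := centralizer ({x} : Set G)

/-- The normalizer of the centralizer of an element. -/
abbrev Me (x : G) : Subgroup G := normalizer ((Ce x : Subgroup G) : Set G)

/-- All centralizers are TI-subsets. -/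
def HTI (G : Type*) [Group G] : Prop := ∀ x : G, IsTISubset ((Ce x : Subgroup G) : Set G)

theorem mem_Ce {x y : G} : y ∈ Ce x ↔ x * y = y * x := by
  rw [Subgroup.mem_centralizer_singleton_iff]
  exact eq_comm

theorem self_mem_Ce (x : G) : x ∈ Ce x := mem_Ce.mpr rfl

theorem Ce_le_Me (x : G) : Ce x ≤ Me x := le_normalizer

theorem mem_Ce_comm {x y : G} : y ∈ Ce x ↔ x ∈ Ce y := by
  rw [mem_Ce, mem_Ce]
  exact eq_comm

theorem mem_Me_of (h : HTI G) {x y w : G} (hy : y ∈ Ce x) (hy1 : y ≠ 1) (hw : w ∈ Ce y) : w ∈ Me x := by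
  by_contra hn
  apply hy1
  refine h x w hn y hy ?_
  have : w * y * w⁻¹ = y := by
    have h1 := mem_Ce.mp hw
    rw [← h1]
    group
  show w * y * w⁻¹ ∈ Ce x
  rw [this]
  exact hy

theorem conj_mem_of_mem_Me {x w y : G} (hw : w ∈ Me x) (hy : y ∈ Ce x) : w * y * w⁻¹ ∈ Ce x :=
  (mem_normalizer_iff.mp hw y).mp hy

theorem mem_of_conj_mem_Me {x w y : G} (hw : w ∈ Me x) (hy : w * y * w⁻¹ ∈ Ce x) : y ∈ Ce x :=
  (mem_normalizer_iff.mp hw y).mpr hy

/-- If `w` normalizes `C(x)` then `x` commutes with `w x w⁻¹`. -/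
theorem comm_conj_of_mem_Me {x w : G} (hw : w ∈ Me x) : x * (w * x * w⁻¹) = (w * x * w⁻¹) * x :=
  mem_Ce.mp (conj_mem_of_mem_Me hw (self_mem_Ce x))

/-- If some nontrivial element `z` of `C(x)` has `g z g⁻¹ ∈ C(x)`, then `g` normalizes `C(x)`. -/
theorem mem_Me_of_conj (h : HTI G) {x z g : G} (hz : z ∈ Ce x) (hz1 : z ≠ 1) (hgz : g * z * g⁻¹ ∈ Ce x) :
    g ∈ Me x := by
  by_contra hn
  exact hz1 (h x g hn z hz hgz)

/-- `Ce` of a conjugate. -/
theorem mem_Ce_conj {x y g : G} : g * y * g⁻¹ ∈ Ce (g * x * g⁻¹) ↔ y ∈ Ce x := by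
  rw [mem_Ce, mem_Ce]
  constructor
  · intro h
    have h1 : g * (x * y) * g⁻¹ = g * (y * x) * g⁻¹ := by
      calc g * (x * y) * g⁻¹ = g * x * g⁻¹ * (g * y * g⁻¹) := by group
        _ = g * y * g⁻¹ * (g * x * g⁻¹) := h
        _ = _ := by group
    exact mul_left_cancel (mul_right_cancel h1)
  · intro h
    calc g * x * g⁻¹ * (g * y * g⁻¹) = g * (x * y) * g⁻¹ := by group
      _ = g * (y * x) * g⁻¹ := by rw [h]
      _ = _ := by group

section Nil

variable {K : Type*} [Group K] [Finite K]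

/-- A finite group in which every element commutes with all its conjugates is nilpotent. -/
theorem nilpotent_of_conj_comm (h : ∀ x w : K, x * (w * x * w⁻¹) = (w * x * w⁻¹) * x) :
    Group.IsNilpotent K := by
  have hle : ∀ x : K, x ∈ fittingSubgroup K := by
    intro x
    have hcomm : ∀ a ∈ Group.conjugatesOfSet ({x} : Set K), ∀ b ∈ Group.conjugatesOfSet ({x} : Set K),
        a * b = b * a := by
      intro a ha b hb
      rw [Group.mem_conjugatesOfSet_iff] at ha hb
      obtain ⟨x1, hx1s, hx1⟩ := ha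
      obtain ⟨x2, hx2s, hx2⟩ := hb
      rw [Set.mem_singleton_iff] at hx1s hx2s
      rw [hx1s] at hx1
      rw [hx2s] at hx2
      obtain ⟨w1, rfl⟩ := isConj_iff.mp hx1
      obtain ⟨w2, rfl⟩ := isConj_iff.mp hx2
      have h0 := h x (w1⁻¹ * w2)
      calc w1 * x * w1⁻¹ * (w2 * x * w2⁻¹)
          = w1 * (x * ((w1⁻¹ * w2) * x * (w1⁻¹ * w2)⁻¹)) * w1⁻¹ := by group
        _ = w1 * (((w1⁻¹ * w2) * x * (w1⁻¹ * w2)⁻¹) * x) * w1⁻¹ := by rw [h0]
        _ = _ := by group
    have hcomm' : IsMulCommutative (normalClosure ({x} : Set K)) := by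
      rw [normalClosure]
      exact isMulCommutative_closure hcomm
    have hnil : Group.IsNilpotent (normalClosure ({x} : Set K)) := by
      letI : CommGroup (normalClosure ({x} : Set K)) :=
        { (inferInstance : Group (normalClosure ({x} : Set K))) with
          mul_comm := fun a b => hcomm'.is_comm.comm a b }
      exact CommGroup.isNilpotent
    exact Cfsg.Agent.Lib.Nilpotent.Fitting.le_fittingSubgroup hnil (subset_normalClosure rfl)
  have htop : fittingSubgroup K = ⊤ := eq_top_iff.mpr fun x _ => hle x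
  have hn := Cfsg.Agent.Lib.Nilpotent.Fitting.isNilpotent_fittingSubgroup (G := K)
  rw [htop] at hn
  exact Group.nilpotent_of_mulEquiv (Subgroup.topEquiv (G := K))

end Nil

variable [Finite G]

/-- Centralizers of nonidentity elements are nilpotent. -/
theorem nilpotent_Ce (h : HTI G) {y : G} (hy : y ≠ 1) : Group.IsNilpotent (Ce y) := by
  apply nilpotent_of_conj_comm
  rintro ⟨x, hx⟩ ⟨w, hw⟩
  apply Subtype.ext
  exact comm_conj_of_mem_Me (mem_Me_of h (mem_Ce_comm.mp hx) hy hw)

omit [Finite G] in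
/-- If `C(w)` contains a nontrivial normal subgroup of `G` it is normal in `G`. -/
theorem normal_Ce (h : HTI G) {w : G} {N : Subgroup G} [hN : N.Normal] (hN1 : N ≠ ⊥) (hle : N ≤ Ce w) :
    (Ce w).Normal := by
  obtain ⟨n, hn, hn1⟩ := N.bot_or_exists_ne_one.resolve_left hN1
  refine ⟨fun c hc g => ?_⟩
  have hg : g ∈ Me w := mem_Me_of_conj h (hle hn) hn1 (hle (hN.conj_mem n hn g))
  exact conj_mem_of_mem_Me hg hc

/-- Elements of the Fitting subgroup have centralizers inside the Fitting subgroup. -/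
theorem Ce_le_fitting (h : HTI G) (hF : fittingSubgroup G ≠ ⊥) {y : G} (hy : y ∈ fittingSubgroup G)
    (hy1 : y ≠ 1) : Ce y ≤ fittingSubgroup G := by
  set F := fittingSubgroup G with hFdef
  haveI hFn : F.Normal := Cfsg.Agent.Lib.Nilpotent.Fitting.fittingSubgroup_normal
  haveI hnil : Group.IsNilpotent F := Cfsg.Agent.Lib.Nilpotent.Fitting.isNilpotent_fittingSubgroup
  haveI : Nontrivial F := by rwa [Subgroup.nontrivial_iff_ne_bot]
  -- the centre of `F`, as a normal subgroup of `G`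
  let Z : Subgroup G := (center F).map F.subtype
  haveI hZ : Z.Normal := Cfsg.Agent.Lib.Nilpotent.Fitting.map_subtype_normal_of_characteristic _
  have hZ1 : Z ≠ ⊥ := by
    intro h0
    apply Group.IsNilpotent.center_ne_bot (G := F)
    rw [Subgroup.map_eq_bot_iff_of_injective _ F.subtype_injective] at h0
    exact h0
  have hZle : Z ≤ Ce y := by
    rintro _ ⟨z, hz, rfl⟩
    rw [mem_Ce]
    have := (Subgroup.mem_center_iff.mp hz) ⟨y, hy⟩
    exact congrArg Subtype.val this
  haveI hn := normal_Ce h hZ1 hZle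
  exact Cfsg.Agent.Lib.Nilpotent.Fitting.le_fittingSubgroup (nilpotent_Ce h hy1) 

/-- If `F(G) ≠ 1`, its order is coprime to its index. -/
theorem coprime_fitting (h : HTI G) (hF : fittingSubgroup G ≠ ⊥) :
    (Nat.card (fittingSubgroup G)).Coprime (fittingSubgroup G).index := by
  set F := fittingSubgroup G with hFdef
  haveI hFn : F.Normal := Cfsg.Agent.Lib.Nilpotent.Fitting.fittingSubgroup_normal
  rw [Nat.coprime_iff_gcd_eq_one] 
  by_contra hne
  obtain ⟨p, hp, hpd⟩ := Nat.exists_prime_and_dvd hne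
  haveI : Fact p.Prime := ⟨hp⟩
  have hp1 : p ∣ Nat.card F := hpd.trans (Nat.gcd_dvd_left _ _)
  have hp2 : p ∣ F.index := hpd.trans (Nat.gcd_dvd_right _ _)
  let P : Sylow p G := default
  -- `P ⊄ F`
  have hPF : ¬ (P : Subgroup G) ≤ F := by
    intro hle
    have h1 : p ∣ (P : Subgroup G).index :=
      hp2.trans (Subgroup.index_dvd_of_le hle)
    exact P.not_dvd_index h1
  obtain ⟨u, huP, huF⟩ := SetLike.not_le_iff_exists.mp hPF
  -- `P ∩ F ≠ 1`
  obtain ⟨f, hf⟩ := exists_prime_orderOf_dvd_card' (G := F) p hp1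
  have hf1 : ((f : F) : G) ≠ 1 := by
    intro h0
    have : f = 1 := Subtype.ext h0
    rw [this, orderOf_one] at hf
    exact hp.one_lt.ne hf
  obtain ⟨Q, hQ⟩ := IsPGroup.exists_le_sylow (P := Subgroup.zpowers ((f : F) : G))
    (IsPGroup.of_card (n := 1) (by
      rw [Nat.card_zpowers, Subgroup.orderOf_coe, hf, pow_one]))
  obtain ⟨g, hg⟩ : ∃ g : G, g • Q = P := MulAction.exists_smul_eq G Q P
  have hf2 : g * (f : G) * g⁻¹ ∈ (P : Subgroup G) := by
    rw [← hg]
    rw [Sylow.smul_def, Sylow.pointwise_smul_def] 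
    exact ⟨_, hQ (Subgroup.mem_zpowers _), rfl⟩
  have hf3 : g * (f : G) * g⁻¹ ∈ F := hFn.conj_mem _ f.2 g
  -- `P ∩ F` as a normal subgroup of `P`
  haveI hPn : ((F.subgroupOf (P : Subgroup G))).Normal := inferInstance
  have hne2 : F.subgroupOf (P : Subgroup G) ≠ ⊥ := by
    intro h0
    have : (⟨_, hf2⟩ : (P : Subgroup G)) ∈ F.subgroupOf (P : Subgroup G) := by
      rw [Subgroup.mem_subgroupOf]
      exact hf3
    rw [h0, Subgroup.mem_bot] at this
    have h2 : g * (f : G) * g⁻¹ = 1 := congrArg Subtype.val this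
    apply hf1
    have h3 : (f : G) = g⁻¹ * (g * (f : G) * g⁻¹) * g := by group
    rw [h3, h2]
    group
  have hinf := Cfsg.Agent.Lib.PGroup.Basic.inf_center_ne_bot (P.isPGroup') hne2
  obtain ⟨y, hy, hy1⟩ := Subgroup.bot_or_exists_ne_one _ |>.resolve_left hinf
  obtain ⟨hy2, hy3⟩ := Subgroup.mem_inf.mp hy
  rw [Subgroup.mem_subgroupOf] at hy2
  have hy4 : (y : G) ≠ 1 := fun h0 => hy1 (Subtype.ext h0)
  apply huF
  apply Ce_le_fitting h hF hy2 hy4
  rw [mem_Ce]
  exact congrArg Subtype.val (Subgroup.mem_center_iff.mp hy3 ⟨u, huP⟩).symm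

/-- A complement of `F(G)` acts fixed point freely on it. -/
theorem exists_complement_fitting (h : HTI G) (hF : fittingSubgroup G ≠ ⊥) (hF' : fittingSubgroup G ≠ ⊤) :
    ∃ H : Subgroup G, (fittingSubgroup G).IsComplement' H ∧ H ≠ ⊥ ∧
      ∀ a ∈ H, a ≠ 1 → ∀ k ∈ fittingSubgroup G, a * k = k * a → k = 1 := by
  haveI hFn : (fittingSubgroup G).Normal := Cfsg.Agent.Lib.Nilpotent.Fitting.fittingSubgroup_normal
  obtain ⟨H, hH⟩ := Subgroup.exists_right_complement'_of_coprime (coprime_fitting h hF)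
  refine ⟨H, hH, ?_, ?_⟩
  · rintro rfl
    apply hF'
    have := hH.sup_eq_top
    rwa [sup_bot_eq] at this
  · intro a ha ha1 k hk hak
    by_contra hk1
    have ha2 : a ∈ fittingSubgroup G := Ce_le_fitting h hF hk hk1 (mem_Ce.mpr hak.symm)
    exact ha1 (by simpa using hH.disjoint.le_bot (Subgroup.mem_inf.mpr ⟨ha2, ha⟩))
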