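import Mathlib
import Cfsg.Agent.Lib.TICent.Basic
import Cfsg.Agent.Lib.Frobenius.SylowFpf

/-!
# The complement of a Frobenius group with TI centralizers

The complement is cyclic or the product of a cyclic group of odd order and `Q₈`.
-/

set_option autoImplicit false
set_option linter.style.haveILetI false

namespace Cfsg.Agent.Lib.TICent

open Cfsg Subgroup

variable {G : Type*} [Group G] [Finite G]

/-- A nilpotency criterion for a subgroup with nontrivial centre. -/
theorem nilpotent_of_center (h : HTI G) {H : Subgroup G} (hZ : center H ≠ ⊥) : Group.IsNilpotent H := by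
  apply nilpotent_of_conj_comm
  rintro ⟨x, hx⟩ ⟨w, hw⟩
  apply Subtype.ext
  obtain ⟨z, hz, hz1⟩ := Subgroup.bot_or_exists_ne_one _ |>.resolve_left hZ
  have hz2 : (z : G) ≠ 1 := fun h0 => hz1 (Subtype.ext h0)
  have hcomm : ∀ u ∈ H, (z : G) * u = u * z := fun u hu =>
    congrArg Subtype.val (Subgroup.mem_center_iff.mp hz ⟨u, hu⟩).symm
  have hzx : (z : G) ∈ Ce x := mem_Ce.mpr (hcomm x hx).symm
  have hwm : w ∈ Me x := by
    apply mem_Me_of_conj h hzx hz2
    have : w * (z : G) * w⁻¹ = z := by
      rw [← hcomm w hw]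
      group
    rw [this]
    exact hzx
  exact comm_conj_of_mem_Me hwm

omit [Finite G] in
/-- No quaternion group of order at least 16 embeds. -/
theorem not_embed_quat (h : HTI G) {N : ℕ} (hN : 3 ≤ N) (φ : QuaternionGroup N →* G)
    (hφ : Function.Injective φ) : False := by
  haveI : NeZero N := ⟨by omega⟩
  haveI : NeZero (2 * N) := ⟨by omega⟩
  open QuaternionGroup in
  let x : QuaternionGroup N := xa 0
  open QuaternionGroup in
  let g : QuaternionGroup N := a 1
  open QuaternionGroup in
  let u : QuaternionGroup N := a (N : ZMod (2 * N))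
  have hu1 : u ≠ 1 := by
    intro h0
    have h1 : (N : ZMod (2 * N)) = 0 := by
      have : (QuaternionGroup.a (N : ZMod (2 * N)) : QuaternionGroup N) = QuaternionGroup.a 0 := by
        rw [QuaternionGroup.a_zero]
        exact h0
      exact QuaternionGroup.a.inj this
    rw [ZMod.natCast_eq_zero_iff] at h1
    have := Nat.le_of_dvd (by omega) h1
    omega
  have h2N : ((2 * N : ℕ) : ZMod (2 * N)) = 0 := ZMod.natCast_self _
  have h2N' : (2 : ZMod (2 * N)) * (N : ZMod (2 * N)) = 0 := by
    have : ((2 * N : ℕ) : ZMod (2 * N)) = (2 : ZMod (2 * N)) * (N : ZMod (2 * N)) := by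
      push_cast
      rfl
    rw [← this, h2N]
  have hux : u * x = x * u := by
    simp only [u, x, QuaternionGroup.a_mul_xa, QuaternionGroup.xa_mul_a]
    congr 1
    linear_combination -h2N'
  have hgu : g * u * g⁻¹ = u := by
    have hc : g * u = u * g := by
      simp only [g, u, QuaternionGroup.a_mul_a, add_comm]
    rw [hc]
    group
  have hφu : φ u ≠ 1 := by
    intro h0
    exact hu1 (hφ (by rw [h0, map_one]))
  have h1 : φ u ∈ Ce (φ x) := mem_Ce.mpr (by rw [← map_mul, ← map_mul, hux])
  have h3 : φ g ∈ Me (φ x) := by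
    apply mem_Me_of_conj h h1 hφu
    have : φ g * φ u * (φ g)⁻¹ = φ u := by
      rw [← map_inv, ← map_mul, ← map_mul, hgu]
    rw [this]
    exact h1
  have h4 := comm_conj_of_mem_Me h3
  have h5 : x * (g * x * g⁻¹) = g * x * g⁻¹ * x := by
    apply hφ
    simp only [map_mul, map_inv]
    exact h4
  -- compute in the quaternion group
  have h6 : g * x * g⁻¹ = QuaternionGroup.xa (-2) := by
    have hinv : g⁻¹ = QuaternionGroup.a (-1) := rfl
    rw [hinv]
    simp only [g, x, QuaternionGroup.a_mul_xa, QuaternionGroup.xa_mul_a]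
    congr 1
    ring
  rw [h6] at h5
  simp only [x, QuaternionGroup.xa_mul_xa] at h5
  have h7 := QuaternionGroup.a.inj h5
  have h8 : (4 : ZMod (2 * N)) = 0 := by linear_combination -h7
  have h9 : ((4 : ℕ) : ZMod (2 * N)) = 0 := by
    push_cast
    exact h8
  rw [ZMod.natCast_eq_zero_iff] at h9
  have := Nat.le_of_dvd (by omega) h9
  omega

section Compl

variable {K H : Subgroup G}

/-- `p`-subgroups of a group acting fixed point freely, viewed inside the group itself. -/
theorem sylow_struct (hK : K ≠ ⊥) (hHK : H ≤ normalizer (K : Set G))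
    (hfpf : ∀ a ∈ H, a ≠ 1 → ∀ v ∈ K, a * v = v * a → v = 1) {p : ℕ} [hp : Fact p.Prime]
    (Q : Subgroup H) (hQ : IsPGroup p Q) :
    IsCyclic Q ∨ (p = 2 ∧ ∃ n : ℕ, Nonempty (Q ≃* QuaternionGroup (2 ^ n))) := by
  let Q' : Subgroup G := Q.map H.subtype
  have hQ'H : Q' ≤ H := by
    rintro _ ⟨x, -, rfl⟩
    exact x.2
  let e : Q ≃* Q' := Subgroup.equivMapOfInjective _ _ H.subtype_injective
  have hQ' : IsPGroup p Q' := IsPGroup.of_equiv hQ e
  rcases Cfsg.Agent.Lib.Frobenius.SylowFpf.isCyclic_or_quaternion_of_fpf hK (hQ'H.trans hHK)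
    (fun a ha => hfpf a (hQ'H ha)) hQ' with h | ⟨h2, n, ⟨e2⟩⟩
  · exact Or.inl (isCyclic_of_surjective e.symm.toMonoidHom e.symm.surjective)
  · exact Or.inr ⟨h2, n, ⟨e.trans e2⟩⟩

/-- The structure of the complement. -/
theorem complement_struct (h : HTI G) (hK : K ≠ ⊥) (hH : H ≠ ⊥) (hHK : H ≤ normalizer (K : Set G))
    (hfpf : ∀ a ∈ H, a ≠ 1 → ∀ v ∈ K, a * v = v * a → v = 1) :
    IsCyclic H ∨ ∃ m : ℕ, Odd m ∧ Nonempty (H ≃* Multiplicative (ZMod m) × QuaternionGroup 2) := by
  classical
  haveI hnil : Group.IsNilpotent H := nilpotent_of_center h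
    (Cfsg.Agent.Lib.Frobenius.Center.center_ne_bot_of_fpf hK hH hHK hfpf)
  by_cases hall : ∀ (p : ℕ) (hp : p.Prime) (P : @Sylow p H _), IsCyclic P
  · left
    haveI hZ : IsZGroup H := ⟨fun p hp P => hall p hp P⟩
    infer_instance
  · right
    push Not at hall
    obtain ⟨p, hp, P, hP⟩ := hall
    haveI : Fact p.Prime := ⟨hp⟩
    rcases sylow_struct hK hHK hfpf (P : Subgroup H) P.isPGroup' with h1 | ⟨rfl, n, ⟨e⟩⟩
    · exact absurd h1 hP
    -- `P` is generalized quaternion of order `4 * 2 ^ n`
    have hn : n = 1 := by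
      by_contra hn1
      rcases Nat.lt_or_gt_of_ne hn1 with h0 | h2
      · have h00 : n = 0 := by omega
        subst h00
        apply hP
        haveI : IsCyclic (QuaternionGroup (2 ^ 0)) := by
          simpa using QuaternionGroup.quaternionGroup_one_isCyclic
        exact isCyclic_of_surjective e.symm.toMonoidHom e.symm.surjective
      · have hN : 3 ≤ 2 ^ n := by
          calc 3 ≤ 2 ^ 2 := by norm_num
            _ ≤ 2 ^ n := Nat.pow_le_pow_right (by norm_num) h2
        exact not_embed_quat h hN
          ((H.subtype.comp (P : Subgroup H).subtype).comp e.symm.toMonoidHom)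
          (by
            simp only [MonoidHom.coe_comp]
            exact (H.subtype_injective.comp (Subgroup.subtype_injective _)).comp e.symm.injective)
    subst hn
    -- `P` is normal, with an odd order complement
    have hiff : Group.IsNilpotent H ↔ ∀ (p : ℕ) (_ : Fact p.Prime) (P : Sylow p H),
        (↑P : Subgroup H).Normal := (Group.isNilpotent_of_finite_tfae (G := H)).out 0 3
    haveI hPn : (P : Subgroup H).Normal := hiff.mp hnil 2 inferInstance P
    obtain ⟨O, hO⟩ := Subgroup.exists_right_complement'_of_coprime (P.card_coprime_index)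
    have hcardO : Nat.card O = (P : Subgroup H).index := hO.symm.index_eq_card.symm
    have hcop : (Nat.card (P : Subgroup H)).Coprime (Nat.card O) := by
      rw [hcardO]
      exact P.card_coprime_index
    have hP8 : Nat.card (P : Subgroup H) = 8 := by
      rw [Nat.card_congr e.toEquiv, Nat.card_eq_fintype_card, QuaternionGroup.card]
      norm_num
    have hOodd : Odd (Nat.card O) := by
      rw [hP8] at hcop
      have : Nat.Coprime 2 (Nat.card O) := Nat.Coprime.coprime_dvd_left (by norm_num) hcop
      exact Nat.Coprime.odd_of_left this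
    -- `O` is cyclic
    haveI hZO : IsZGroup O := by
      refine ⟨fun q hq Q => ?_⟩
      haveI : Fact q.Prime := ⟨hq⟩
      let Q' : Subgroup H := (Q : Subgroup O).map O.subtype
      let eQ : (Q : Subgroup O) ≃* Q' := Subgroup.equivMapOfInjective _ _ O.subtype_injective
      have hQ' : IsPGroup q Q' := IsPGroup.of_equiv Q.isPGroup' eQ
      rcases sylow_struct hK hHK hfpf Q' hQ' with h1 | ⟨rfl, -⟩
      · exact isCyclic_of_surjective eQ.symm.toMonoidHom eQ.symm.surjective
      · have h1 : Nat.card (Q : Subgroup O) = 1 := by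
          rcases (Q.isPGroup').card_eq_or_dvd with h | h
          · exact h
          · exfalso
            have h2 := h.trans (Subgroup.card_subgroup_dvd_card _)
            exact (Nat.not_even_iff_odd.mpr hOodd) (even_iff_two_dvd.mpr h2)
        haveI : Subsingleton (Q : Subgroup O) := (Nat.card_eq_one_iff_unique.mp h1).1
        exact isCyclic_of_subsingleton
    haveI hOnil : Group.IsNilpotent O := inferInstance
    have hOc : IsCyclic O := inferInstance
    -- the product decomposition
    have hcomm : ∀ (s : (P : Subgroup H)) (o : O), Commute ((P : Subgroup H).subtype s) (O.subtype o) := by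
      intro s o
      apply Cfsg.Agent.Lib.Nilpotent.Elements.commute_of_coprime_orderOf
      have h1 : orderOf ((P : Subgroup H).subtype s) ∣ Nat.card (P : Subgroup H) := by
        rw [Subgroup.coe_subtype, Subgroup.orderOf_coe]
        exact orderOf_dvd_natCard s
      have h2 : orderOf (O.subtype o) ∣ Nat.card O := by
        rw [Subgroup.coe_subtype, Subgroup.orderOf_coe]
        exact orderOf_dvd_natCard o
      exact Nat.Coprime.coprime_dvd_left h1 (Nat.Coprime.coprime_dvd_right h2 hcop)
    let f : ↥(P : Subgroup H) × ↥O →* H := MonoidHom.noncommCoprod (P : Subgroup H).subtype O.subtype hcomm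
    have hbij : Function.Bijective f := by
      have := (Subgroup.isComplement'_def.mp hO)
      exact this
    let E : ↥(P : Subgroup H) × ↥O ≃* H := MulEquiv.ofBijective f hbij
    refine ⟨Nat.card O, hOodd, ⟨E.symm.trans ?_⟩⟩
    exact (MulEquiv.prodCongr e (zmodCyclicMulEquiv hOc).symm).trans MulEquiv.prodComm

end Compl

end Cfsg.Agent.Lib.TICent
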